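import Cfsg.Agent.Lib.Ree.PolyWt
import Cfsg.Agent.Lib.Ree.Mat

/-! Weighted degrees of functions on the Sylow 3-subgroup of a small Ree group. -/

set_option autoImplicit false

namespace H62.RS

open H40.Wt H40.Ree

variable {K : Type*} [Field K]

/-- Functions of degree less than `d`. -/
def Pd (d : ℕ) (f : K → K) : Prop := Poly d fun x => Multiplicative.ofAdd (f x)

theorem pd_zero {f : K → K} : Pd 0 f ↔ ∀ x, f x = 0 := Iff.rfl

theorem pd_succ {d : ℕ} {f : K → K} : Pd (d + 1) f ↔ ∀ h, Pd d fun x => f (x + h) - f x := Iff.rfl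

theorem Pd.of_zero {f : K → K} (d : ℕ) (h : ∀ x, f x = 0) : Pd d f :=
  Poly.mono (pd_zero.2 h) (Nat.zero_le d)

theorem Pd.mul {n a b : ℕ} {f g : K → K} (h : a + b ≤ n + 1) (hf : Pd a f) (hg : Pd b g) :
    Pd n fun x => f x * g x := by
  induction n generalizing a b f g with
  | zero =>
    intro x
    rcases (by omega : a = 0 ∨ b = 0) with rfl | rfl
    · exact (congrArg (· * g x) (pd_zero.1 hf x)).trans (zero_mul _)
    · exact (congrArg (f x * ·) (pd_zero.1 hg x)).trans (mul_zero _)
  | succ n ih =>
    rcases a with _ | a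
    · exact Pd.of_zero _ fun x => by rw [pd_zero.1 hf x, zero_mul]
    rcases b with _ | b
    · exact Pd.of_zero _ fun x => by rw [pd_zero.1 hg x, mul_zero]
    refine pd_succ.2 fun t => ?_
    have hg' : Pd (b + 1) fun x => g (x + t) := Poly.shift t hg
    have := Poly.mul (ih (by omega) (pd_succ.1 hf t) hg') (ih (by omega) hf (pd_succ.1 hg t))
    refine (congrArg (Poly n) (funext fun x => ?_)).mp this
    rw [← ofAdd_add]; congr 1; ring

theorem pd_const (c : K) : Pd 1 fun _ => c := fun _ _ => sub_self c

theorem pd_add (f : K →+ K) : Pd 2 f := fun h => by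
  have : (fun x => f (x + h) - f x) = fun _ => f h := funext fun x => by rw [map_add]; ring
  exact (congrArg (Pd 1) this).mpr (pd_const _)

theorem Pd.map (φ : K →+* K) {d : ℕ} {f : K → K} (h : Pd d f) : Pd d fun x => φ (f x) :=
  H40.Wt.Poly.map (AddMonoidHom.toMultiplicative φ.toAddMonoidHom) h

theorem Pd.sum [Fintype K] [CharP K 3] {n : ℕ} (hn : Nat.card K = 3 ^ n) {f : K → K}
    (h : Pd (2 * n) f) : ∑ x, f x = 0 := by
  have := prod_eq_one hn _ (fun x => cube_ofAdd (f x)) h
  rwa [← ofAdd_sum] at this

/-- Functions of three variables of weights one, two and three, of degree at most `d`. -/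
inductive Dg : ℕ → (K × K × K → K) → Prop
  | mono {i j k d : ℕ} {P Q R : K → K} : Pd (i + 1) P → Pd (j + 1) Q → Pd (k + 1) R →
      i + 2 * j + 3 * k ≤ d → Dg d fun x => P x.1 * Q x.2.1 * R x.2.2
  | add {d : ℕ} {F G : K × K × K → K} : Dg d F → Dg d G → Dg d fun x => F x + G x

namespace Dg

theorem le {d e : ℕ} {F : K × K × K → K} (h : Dg d F) (hd : d ≤ e) : Dg e F := by
  induction h with
  | mono a b c h => exact mono a b c (h.trans hd)
  | add _ _ a b => exact add (a hd) (b hd)

theorem congr {d : ℕ} {F G : K × K × K → K} (h : Dg d F) (e : ∀ x, F x = G x) : Dg d G :=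
  funext e ▸ h

theorem mul {d e : ℕ} {F G : K × K × K → K} (h : Dg d F) (h' : Dg e G) :
    Dg (d + e) fun x => F x * G x := by
  induction h with
  | @mono i j k _ _ _ _ a b c h =>
    induction h' with
    | @mono i' j' k' _ _ _ _ a' b' c' h' =>
      exact (mono (i := i + i') (j := j + j') (k := k + k') (Pd.mul (by omega) a a')
        (Pd.mul (by omega) b b') (Pd.mul (by omega) c c') (by omega)).congr fun x => by ring
    | add _ _ a b => exact (add a b).congr fun x => by ring
  | add _ _ a b => exact (add a b).congr fun x => by ring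

theorem const (c : K) : Dg 0 fun _ : K × K × K => c :=
  (mono (pd_const c) (pd_const 1) (pd_const 1) le_rfl).congr fun x => by ring

theorem map (φ : K →+* K) {d : ℕ} {F : K × K × K → K} (h : Dg d F) : Dg d fun x => φ (F x) := by
  induction h with
  | mono a b c h => exact (mono (a.map φ) (b.map φ) (c.map φ) h).congr fun x => by simp
  | add _ _ a b => exact (add a b).congr fun x => by simp

theorem add' {d e : ℕ} {F G : K × K × K → K} (h : Dg d F) (h' : Dg e G) :
    Dg (max d e) fun x => F x + G x := add (h.le (le_max_left _ _)) (h'.le (le_max_right _ _))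

theorem neg {d : ℕ} {F : K × K × K → K} (h : Dg d F) : Dg d fun x => -F x :=
  (((const (-1)).mul h).congr fun x => by ring).le (by omega)

theorem sub {d e : ℕ} {F G : K × K × K → K} (h : Dg d F) (h' : Dg e G) :
    Dg (max d e) fun x => F x - G x := (h.add' h'.neg).congr fun x => by ring

theorem pow {d : ℕ} {F : K × K × K → K} (h : Dg d F) (n : ℕ) : Dg (n * d) fun x => F x ^ n := by
  induction n with
  | zero => exact ((const 1).congr fun x => by ring).le (by omega)
  | succ n ih => exact ((ih.mul h).congr fun x => by ring).le (by rw [add_mul, one_mul])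

theorem fst : Dg 1 fun x : K × K × K => x.1 :=
  (mono (pd_add (AddMonoidHom.id K)) (pd_const 1) (pd_const 1) le_rfl).congr fun x => by simp

theorem snd : Dg 2 fun x : K × K × K => x.2.1 :=
  (mono (pd_const 1) (pd_add (AddMonoidHom.id K)) (pd_const 1) le_rfl).congr fun x => by simp

theorem thd : Dg 3 fun x : K × K × K => x.2.2 :=
  (mono (pd_const 1) (pd_const 1) (pd_add (AddMonoidHom.id K)) le_rfl).congr fun x => by simp

theorem fsum {ι : Type*} (s : Finset ι) {d : ℕ} {F : ι → K × K × K → K} (h : ∀ i ∈ s, Dg d (F i)) :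
    Dg d fun x => ∑ i ∈ s, F i x := by
  classical
  induction s using Finset.induction_on with
  | empty => exact ((const 0).congr fun x => by simp).le (by omega)
  | insert a s ha ih =>
    exact (add (h a (by simp)) (ih fun i hi => h i (by simp [hi]))).congr fun x => by
      rw [Finset.sum_insert ha]

theorem fprod {ι : Type*} (s : Finset ι) {d : ι → ℕ} {F : ι → K × K × K → K}
    (h : ∀ i ∈ s, Dg (d i) (F i)) : Dg (∑ i ∈ s, d i) fun x => ∏ i ∈ s, F i x := by
  classical
  induction s using Finset.induction_on with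
  | empty => exact (const 1).congr fun x => by simp
  | insert a s ha ih =>
    rw [Finset.sum_insert ha]
    exact (mul (h a (by simp)) (ih fun i hi => h i (by simp [hi]))).congr fun x => by
      rw [Finset.prod_insert ha]

theorem sum [Fintype K] [CharP K 3] {n : ℕ} (hn : Nat.card K = 3 ^ n) {d : ℕ}
    {F : K × K × K → K} (h : Dg d F) (hd : d < 12 * n) : ∑ x, F x = 0 := by
  induction h with
  | @mono i j k d P Q R a b c h =>
    have : ∑ x : K × K × K, P x.1 * Q x.2.1 * R x.2.2 = (∑ x, P x) * ((∑ x, Q x) * ∑ x, R x) := by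
      rw [Finset.sum_mul_sum, ← Fintype.sum_prod_type', Finset.sum_mul_sum, ← Fintype.sum_prod_type']
      simp only [mul_assoc]
    rw [this]
    rcases (by omega : i + 1 ≤ 2 * n ∨ j + 1 ≤ 2 * n ∨ k + 1 ≤ 2 * n) with e | e | e
    · rw [Pd.sum hn (Poly.mono a e), zero_mul]
    · rw [Pd.sum hn (Poly.mono b e), zero_mul, mul_zero]
    · rw [Pd.sum hn (Poly.mono c e), mul_zero, mul_zero]
  | add _ _ a b => rw [Finset.sum_add_distrib, a hd, b hd, add_zero]

end Dg

theorem dg_uM (s : K →+* K) (i j : Fin 7) :
    Dg (if i = 0 ∧ j = 6 then 6 else 5) fun x : K × K × K => uM s x.1 x.2.1 x.2.2 i j := by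
  have a := Dg.fst (K := K)
  have b := Dg.snd (K := K)
  have c := Dg.thd (K := K)
  have A := a.map s
  have B := b.map s
  have C := c.map s
  fin_cases i <;> fin_cases j <;>
    simp only [uM, uP, Matrix.of_apply, Matrix.cons_val', Matrix.cons_val, Fin.zero_eta, Fin.mk_one,
      Fin.reduceFinMk, Matrix.cons_val_fin_one] <;>
    refine Dg.le (by
      repeat' first
        | exact Dg.const _ | exact a | exact b | exact c | exact A | exact B | exact C
        | apply Dg.sub | apply Dg.add' | apply Dg.mul | apply Dg.neg | apply Dg.pow) (by decide)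

theorem dg_six (s : K →+* K) (i j : Fin 7) :
    Dg 6 fun x : K × K × K => uM s x.1 x.2.1 x.2.2 i j :=
  (dg_uM s i j).le (by split_ifs <;> omega)

end H62.RS
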