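import Cfsg.Agent.Lib.Ree.TorusM
import Cfsg.Agent.Lib.Char.Inner

/-! The trace separates the regular semisimple classes of a small Ree group. -/

set_option autoImplicit false
set_option linter.unusedSectionVars false

namespace H62.RS

open H40.Ree H40.Tor Matrix

theorem ncard_class {G : Type*} [Group G] [Finite G] (x : G) :
    {y | IsConj x y}.ncard * Nat.card (Subgroup.centralizer ({x} : Set G)) = Nat.card G := by
  rw [← Subgroup.index_mul_card (Subgroup.centralizer ({x} : Set G)), ← H6.card_isConj_eq_index]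
  rfl

theorem card_cent_conj {G : Type*} [Group G] {x y : G} (h : IsConj x y) :
    Nat.card (Subgroup.centralizer ({x} : Set G)) = Nat.card (Subgroup.centralizer ({y} : Set G)) := by
  obtain ⟨g, rfl⟩ := isConj_iff.1 h
  rw [← cj_centralizer, card_cj]

theorem ncard_classes {G : Type*} [Group G] [Finite G] (P : ℕ → Prop) {c : ℕ}
    (hc : ∀ x : G, P (orderOf x) → Nat.card (Subgroup.centralizer ({x} : Set G)) = c) :
    (ConjClasses.mk '' {x : G | P (orderOf x)}).ncard * Nat.card G =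
      {x : G | P (orderOf x)}.ncard * c := by
  classical
  have := Fintype.ofFinite G
  rw [Set.ncard_eq_toFinset_card', Set.ncard_eq_toFinset_card', Set.toFinset_image,
    Finset.card_eq_sum_card_image ConjClasses.mk (Set.toFinset _), Finset.sum_mul,
    Finset.card_eq_sum_ones, Finset.sum_mul]
  refine Finset.sum_congr rfl fun b hb => ?_
  obtain ⟨x, hx, rfl⟩ := Finset.mem_image.1 hb
  rw [Set.mem_toFinset] at hx
  rw [one_mul, ← ncard_class x, hc x hx, Set.ncard_eq_toFinset_card']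
  congr 2
  ext y
  simp only [Set.mem_toFinset, Set.mem_ofPred_eq, Finset.mem_filter, ConjClasses.mk_eq_mk_iff_isConj]
  refine ⟨fun h => ⟨?_, h.symm⟩, fun h => h.2.symm⟩
  obtain ⟨g, rfl⟩ := isConj_iff.1 h
  rwa [orderOf_conj]

variable {G : Type*} [Group G] {K : Type*} [Field K] [CharP K 3] (S : Model G K)

/-- The trace in the seven-dimensional representation. -/
def tr (g : G) : K := (S.mat g).trace

/-- Regular semisimple elements. -/
def Rg (x : G) : Prop := 2 < orderOf x ∧ ¬ 3 ∣ orderOf x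

theorem tr_comm (a b : G) : tr S (a * b) = tr S (b * a) := by
  rw [tr, tr, map_mul, map_mul, trace_mul_comm]

theorem tr_conj {x y : G} (h : IsConj x y) : tr S x = tr S y := by
  obtain ⟨g, rfl⟩ := isConj_iff.1 h
  rw [tr_comm, inv_mul_cancel_left]

theorem three : (3 : K) = 0 := CharP.cast_eq_zero K 3

theorem tr_u (a b c : K) : tr S (S.u a b c) = 1 := by
  rw [tr, S.mat_u]
  simp [uM, uP, trace, Fin.sum_univ_seven]
  linear_combination 2 * three (K := K)

theorem tr_eq (g : G) : tr S g = ∑ i, (S.mat g *ᵥ e i) i := by simp [tr, trace]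

theorem tr_ua (a b c : K) : tr S (S.u a b c * S.a0) = -1 := by
  simp only [tr_eq, S.mat_mul_vec, S.mat_a0_mulVec, S.mat_u, uM, uP_mulVec, Fin.sum_univ_seven]
  simp

theorem tr_whu (k : Kˣ) (c : K) :
    tr S (S.w * S.h k * S.u 0 0 c) = (k : K) ^ 2 * S.s k * c ^ 2 - 1 := by
  simp only [tr_eq, S.mat_mul_vec, S.mat_u, S.mat_h, S.mat_w, uM, hM, uP_mulVec, hP_mulVec,
    wM_mulVec, Fin.sum_univ_seven]
  simp
  ring

theorem tr_mul_z (y : G) (c : K) : tr S (y * S.u 0 0 c) = tr S y +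
    (S.mat y 5 2 - S.mat y 3 0 - S.mat y 4 1 - S.mat y 6 3) * c + (S.mat y 6 1 - S.mat y 5 0) * S.s c -
      S.mat y 6 0 * c ^ 2 := by
  rw [tr, tr, map_mul, S.mat_u]
  simp [uM, uP, trace, Fin.sum_univ_seven, Matrix.mul_apply]
  ring

/-- The invariant form. -/
def fm (v w : Fin 7 → K) : K :=
  v 0 * w 6 + v 1 * w 5 + v 2 * w 4 - v 3 * w 3 + v 4 * w 2 + v 5 * w 1 + v 6 * w 0

theorem fm_mat (g : G) : ∀ v w, fm (S.mat g *ᵥ v) (S.mat g *ᵥ w) = fm v w := by
  refine S.induction_on (P := fun g => ∀ v w, fm (S.mat g *ᵥ v) (S.mat g *ᵥ w) = fm v w) g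
    (fun a b c v w => ?_) (fun k v w => ?_) (fun v w => ?_) fun x y hx hy v w => ?_
  · rw [S.mat_u, uM, uP_mulVec, uP_mulVec]
    simp only [fm, Matrix.cons_val]
    grind
  · have h1 := k.mul_inv
    have h2 := s_mul_inv S.s k
    rw [S.mat_h, hM, hP_mulVec, hP_mulVec]
    simp only [fm, Matrix.cons_val]
    grind
  · rw [S.mat_w, wM_mulVec, wM_mulVec]
    simp only [fm, Matrix.cons_val]
    ring
  · rw [S.mat_mul_vec, S.mat_mul_vec, hx, hy]

theorem tr_inv (g : G) : tr S g⁻¹ = tr S g := by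
  have h : ∀ i j, fm (S.mat g⁻¹ *ᵥ e i) (e j) = fm (e i) (S.mat g *ᵥ e j) := fun i j => by
    rw [← fm_mat S g, S.mat_vec_inv]
  have h0 := h 0 6
  have h1 := h 1 5
  have h2 := h 2 4
  have h3 := h 3 3
  have h4 := h 4 2
  have h5 := h 5 1
  have h6 := h 6 0
  simp [fm] at h0 h1 h2 h3 h4 h5 h6
  simp only [tr, trace, Fin.sum_univ_seven, diag_apply, h0, h1, h2, h3, h4, h5, h6]
  ring

variable [Finite K]

theorem tr_of_not_rg {x : G} (h : ¬ Rg x) : tr S x = 1 ∨ tr S x = -1 := by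
  have := S.finite
  by_cases h3 : 3 ∣ orderOf x
  · obtain ⟨g, hg⟩ := S.exists_conj_mem_B h3
    rw [tr_conj S (isConj_iff.2 ⟨g⁻¹, by rw [inv_inv]⟩ : IsConj x (g⁻¹ * x * g))]
    rcases S.cases_of_three_dvd hg (by rwa [orderOf_conj']) with ⟨a, b, c, e⟩ | ⟨a, b, c, e⟩
    exacts [Or.inl (e ▸ tr_u S a b c), Or.inr (e ▸ tr_ua S a b c)]
  · by_cases h1 : x = 1
    · exact Or.inl (by rw [h1, ← S.u_zero, tr_u])
    · have h2 : x * x = 1 := by
        by_contra h2
        exact h ⟨Model.two_lt_orderOf h2, h3⟩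
      exact Or.inr (by rw [← tr_conj S (S.isConj_a0 h2 h1), ← one_mul S.a0, ← S.u_zero, tr_ua])

theorem rg_of_tr {x : G} (h1 : tr S x ≠ 1) (h2 : tr S x ≠ -1) : Rg x := by
  by_contra h
  exact (tr_of_not_rg S h).elim h1 h2

theorem exists_tr {τ : K} (h : τ ≠ -1) : ∃ k, tr S (S.w * S.h k * S.u 0 0 1) = τ := by
  obtain ⟨a, ha⟩ := S.exists_sq_s (τ + 1)
  have : a ≠ 0 := by
    rintro rfl
    exact h (by rw [zero_pow two_ne_zero, zero_mul] at ha; linear_combination -ha)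
  exact ⟨Units.mk0 a this, by rw [tr_whu, Units.val_mk0, ha]; ring⟩

include S in
theorem cent_H {x : G} (h : 2 < orderOf x ∧ orderOf x ∣ Nat.card K - 1) :
    Nat.card (Subgroup.centralizer ({x} : Set G)) = Nat.card K - 1 := by
  obtain ⟨g, hg⟩ := S.exists_conj_mem_H h.1 h.2
  rw [card_cent_conj (isConj_iff.2 ⟨g⁻¹, by rw [inv_inv]⟩ : IsConj x (g⁻¹ * x * g)),
    S.centralizer_of_mem_H hg (by rw [orderOf_conj']; exact h.1), S.card_H]

include S in
theorem cent_T {x : G} (h : 2 < orderOf x ∧ orderOf x ∣ Nat.card K + 1) :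
    Nat.card (Subgroup.centralizer ({x} : Set G)) = Nat.card K + 1 := by
  obtain ⟨g, hg⟩ := S.exists_conj_mem_T0 h.1 h.2
  rw [card_cent_conj (isConj_iff.2 ⟨g⁻¹, by rw [inv_inv]⟩ : IsConj x (g⁻¹ * x * g)),
    S.centralizer_T0 hg (Model.sq_ne_one (by rw [orderOf_conj']; exact h.1)), S.card_T0]

omit [Finite K] in
theorem cent_M [Finite G] {T : Subgroup G} (hT : IsTor T T) {x : G}
    (h : orderOf x ≠ 1 ∧ orderOf x ∣ Nat.card T) :
    Nat.card (Subgroup.centralizer ({x} : Set G)) = Nat.card T := by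
  obtain ⟨g, hg⟩ := hT.exists_conj_mem_of_dvd h.2
  rw [card_cent_conj (isConj_iff.2 ⟨g⁻¹, by rw [inv_inv]⟩ : IsConj x (g⁻¹ * x * g)),
    hT.cent _ hg (conj_ne_one' fun e => h.1 (orderOf_eq_one_iff.2 e))]

variable (hq : 3 < Nat.card K) {r : ℕ} (hr : r * r = 3 * Nat.card K)
include S hq hr

theorem Rg.cases {x : G} (h : Rg x) : (2 < orderOf x ∧ orderOf x ∣ Nat.card K - 1) ∨
    (2 < orderOf x ∧ orderOf x ∣ Nat.card K + 1) ∨
    (orderOf x ≠ 1 ∧ orderOf x ∣ Nat.card K - r + 1) ∨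
    (orderOf x ≠ 1 ∧ orderOf x ∣ Nat.card K + r + 1) := by
  have := S.finite
  obtain ⟨h2, h3⟩ := h
  rcases S.orderOf_cases x with e | e | e | e | e | e | e | e
  iterate 5 omega
  · exact Or.inl e
  · exact Or.inr (Or.inl ⟨h2, e.2.trans S.half_dvd⟩)
  obtain ⟨p, hp, hd⟩ := Nat.exists_prime_and_dvd e.1.ne'
  have key : ∀ k, k = Nat.card K - r + 1 ∨ k = Nat.card K + r + 1 → p ∣ k → orderOf x ∣ k := by
    intro k hk h
    obtain ⟨T, hT, rfl, -⟩ := S.exists_tor_pm hq hr hk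
    obtain ⟨g, hg⟩ := hT.exists_conj_mem hp h hd
    exact orderOf_conj' g x ▸ T.orderOf_dvd_natCard hg
  have := hd.trans e.2
  rw [M_factor hq.le hr] at this
  exact Or.inr (Or.inr (((Nat.Prime.dvd_mul hp).1 this).imp (fun h => ⟨e.1.ne', key _ (Or.inl rfl) h⟩)
    fun h => ⟨e.1.ne', key _ (Or.inr rfl) h⟩))

theorem nums : 3 ∣ r ∧ 3 ∣ Nat.card K ∧ 9 ≤ r ∧ 3 * r ≤ Nat.card K := by
  have h1 := S.le_card hq
  have h2 : 9 ≤ r := by by_contra h; nlinarith
  exact ⟨(Nat.prime_three.dvd_mul.1 ⟨_, hr⟩).elim id id, (Model.card_three_ne (K := K)).2, h2, by nlinarith⟩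

theorem Rg.cent {x : G} (h : Rg x) :
    Nat.card (Subgroup.centralizer ({x} : Set G)) ≤ Nat.card K + r + 1 ∧
      ¬ 3 ∣ Nat.card (Subgroup.centralizer ({x} : Set G)) := by
  have := S.finite
  obtain ⟨n1, n2, n3, n4⟩ := nums S hq hr
  rcases h.cases S hq hr with e | e | e | e
  · rw [cent_H S e]; omega
  · rw [cent_T S e]; omega
  · obtain ⟨T, hT, c, -⟩ := S.exists_tor_pm hq hr (Or.inl rfl)
    rw [cent_M hT (c ▸ e), c]; omega
  · obtain ⟨T, hT, c, -⟩ := S.exists_tor_pm hq hr (Or.inr rfl)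
    rw [cent_M hT (c ▸ e), c]; omega

theorem ncard_rg : (ConjClasses.mk '' {x : G | Rg x}).ncard ≤ Nat.card K - 2 := by
  have := S.finite
  obtain ⟨n1, n2, n3, n4⟩ := nums S hq hr
  have g0 : 0 < Nat.card G := Nat.card_pos
  have c1 := ncard_classes (fun n => 2 < n ∧ n ∣ Nat.card K - 1) fun x => cent_H S (x := x)
  have c2 := ncard_classes (fun n => 2 < n ∧ n ∣ Nat.card K + 1) fun x => cent_T S (x := x)
  have d1 := S.ncard_H_all hq
  have d2 := S.ncard_T_all hq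
  have key : ∀ k, k = Nat.card K - r + 1 ∨ k = Nat.card K + r + 1 →
      6 * (ConjClasses.mk '' {x : G | orderOf x ≠ 1 ∧ orderOf x ∣ k}).ncard = k - 1 := by
    intro k hk
    obtain ⟨T, hT, rfl, e⟩ := S.exists_tor_pm hq hr hk
    have c := ncard_classes (fun n => n ≠ 1 ∧ n ∣ Nat.card T) fun x => cent_M hT (x := x)
    have d := hT.ncard_dvd
    rw [show {y : G | y ≠ 1 ∧ orderOf y ∣ Nat.card T} = {x | orderOf x ≠ 1 ∧ orderOf x ∣ Nat.card T} by
      simp only [ne_eq, orderOf_eq_one_iff]] at d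
    refine Nat.eq_of_mul_eq_mul_left g0 ?_
    rw [← d, e, mul_left_comm, mul_comm (Nat.card G), c]; ring
  have e1 : 2 * (ConjClasses.mk '' {x : G | 2 < orderOf x ∧ orderOf x ∣ Nat.card K - 1}).ncard =
      Nat.card K - 3 := Nat.eq_of_mul_eq_mul_left g0 (by
    rw [← d1, mul_left_comm, mul_comm (Nat.card G), c1]; ring)
  have e2 : 6 * (ConjClasses.mk '' {x : G | 2 < orderOf x ∧ orderOf x ∣ Nat.card K + 1}).ncard =
      Nat.card K - 3 := Nat.eq_of_mul_eq_mul_left g0 (by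
    rw [← d2, mul_left_comm, mul_comm (Nat.card G), c2]; ring)
  have e3 := key _ (Or.inl rfl)
  have e4 := key _ (Or.inr rfl)
  have := (Set.ncard_le_ncard (Set.image_mono (f := ConjClasses.mk) (s := {x : G | Rg x}) (t := {x : G | _} ∪ ({x : G | _} ∪
    ({x : G | _} ∪ {x : G | _}))) fun x (hx : Rg x) => hx.cases S hq hr))
  rw [Set.image_union, Set.image_union, Set.image_union] at this
  have := this.trans ((Set.ncard_union_le _ _).trans (Nat.add_le_add_left ((Set.ncard_union_le _ _).trans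
    (Nat.add_le_add_left (Set.ncard_union_le _ _) _)) _))
  omega

theorem Rg.tr {x : G} (h : Rg x) :
    tr S x ≠ 1 ∧ tr S x ≠ -1 ∧ ∀ y, tr S y = tr S x → IsConj x y := by
  have := S.finite
  let f : ConjClasses G → K := Quotient.lift (RS.tr S) fun _ _ => tr_conj S
  have h1 : ({1, -1}ᶜ : Set K) ⊆ f '' (ConjClasses.mk '' {x : G | Rg x}) := fun τ hτ => by
    simp only [Set.mem_compl_iff, Set.mem_insert_iff, Set.mem_singleton_iff, not_or] at hτ
    obtain ⟨k, hk⟩ := exists_tr S hτ.2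
    exact ⟨_, ⟨_, rg_of_tr S (hk ▸ hτ.1) (hk ▸ hτ.2), rfl⟩, hk⟩
  have h2 : ({1, -1}ᶜ : Set K).ncard = Nat.card K - 2 := by
    rw [Set.ncard_compl, Set.ncard_pair neg_one_ne_one_K.symm]
  have h3 := ncard_rg S hq hr
  have h4 := Set.ncard_image_le (f := f) (s := ConjClasses.mk '' {x : G | Rg x})
  have h5 := Set.ncard_le_ncard h1
  have h6 : f (ConjClasses.mk x) ∈ ({1, -1}ᶜ : Set K) :=
    Set.eq_of_subset_of_ncard_le h1 (by omega) ▸ ⟨_, ⟨x, h, rfl⟩, rfl⟩
  simp only [Set.mem_compl_iff, Set.mem_insert_iff, Set.mem_singleton_iff, not_or] at h6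
  exact ⟨h6.1, h6.2, fun y hy => ConjClasses.mk_eq_mk_iff_isConj.1
    (Set.injOn_of_ncard_image_eq (f := f) (s := ConjClasses.mk '' {x : G | Rg x}) (by omega)
      (Set.toFinite _) ⟨x, h, rfl⟩
      ⟨y, rg_of_tr S (hy ▸ h6.1) (hy ▸ h6.2), rfl⟩ hy.symm)⟩

end H62.RS
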