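import Cfsg.Agent.Lib.ReeSq.Deg
import Cfsg.Agent.Lib.ReeSq.Tr
import Cfsg.Agent.Lib.Perm.PermModule

/-! Products of a regular semisimple element of a small Ree group with involutions. -/

set_option autoImplicit false
set_option linter.unusedSectionVars false

namespace H62.RS

open H40.Ree H40.Tor Matrix
open scoped Classical

theorem sum_prod_add {ι T K : Type*} [Fintype ι] [CommRing K] (I : Finset T) (A B : ι → T → K)
    (h : ∀ s : Finset ι, s ≠ Finset.univ →
      ∑ t ∈ I, (∏ i ∈ s, A i t) * ∏ i ∈ Finset.univ \ s, B i t = 0) :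
    ∑ t ∈ I, ∏ i, (A i t + B i t) = ∑ t ∈ I, ∏ i, A i t := by
  simp only [Finset.prod_add]
  rw [Finset.sum_comm, Finset.sum_eq_single_of_mem Finset.univ (by simp) fun s _ => h s]
  simp

variable {G : Type*} [Group G] {K : Type*} [Field K] [CharP K 3] (S : Model G K)

/-- The powers of the Frobenius map, each of them twice. -/
def fr (K : Type*) [Field K] [CharP K 3] (n : ℕ) (i : Fin n × Fin 2) : K →+* K :=
  haveI := Fact.mk Nat.prime_three
  iterateFrobenius K 3 i.1

theorem prod_fr (n : ℕ) (x : K) : ∏ i, fr K n i x = x ^ (3 ^ n - 1) := by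
  simp only [fr, iterateFrobenius_def, Finset.prod_pow_eq_pow_sum, Fintype.sum_prod_type,
    Finset.sum_const, Finset.card_univ, Fintype.card_fin, smul_eq_mul]
  rw [← Finset.mul_sum, Fin.sum_univ_eq_sum_range (fun i => 3 ^ i) n, Nat.geomSum_eq (by decide),
    Nat.mul_div_cancel' (Nat.sub_one_dvd_pow_sub_one 3 n)]

/-- Tensor products of twists of the seven-dimensional representation. -/
noncomputable def tens {ι : Type*} [Fintype ι] (f : ι → K →+* K) :
    G →* Matrix (ι → Fin 7) (ι → Fin 7) K where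
  toFun g := Matrix.of fun p q => ∏ i, f i (S.mat g (p i) (q i))
  map_one' := by
    ext p q
    simp only [map_one, of_apply, one_apply, apply_ite (f _), map_zero, Finset.prod_boole,
      Finset.mem_univ, forall_const, funext_iff]
  map_mul' a b := by
    ext p q
    simp only [map_mul, of_apply, mul_apply, map_sum, Finset.prod_univ_sum, Fintype.piFinset_univ,
      Finset.prod_mul_distrib]

theorem trace_tens {ι : Type*} [Fintype ι] (f : ι → K →+* K) (g : G) :
    (tens S f g).trace = ∏ i, f i (tr S g) := by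
  simp only [tr, trace, diag_apply, map_sum, Finset.prod_univ_sum, Fintype.piFinset_univ]
  rfl

theorem coord_eq_zero {g : G} : S.mat g 6 0 = 0 ↔ g ∈ S.B :=
  ⟨fun h => S.mem_B_of_coord (by simpa using h), fun h => by simpa using S.coord_of_mem_B h⟩

theorem wuw_mem {a b c : K} (h : S.w * S.u a b c * S.w ∈ S.B) : a = 0 ∧ b = 0 ∧ c = 0 := by
  rw [S.mem_B, mul_smul, mul_smul, S.w_smul_inf, S.u_smul_zero, smul_eq_iff_eq_inv_smul, S.w_inv,
    S.w_smul_inf] at h
  exact S.pt_inj.1 h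

theorem u06 {a b c : K} (h : uM S.s a b c 0 6 = 0) : a = 0 ∧ b = 0 ∧ c = 0 := by
  refine wuw_mem S (S.mem_B_of_coord ?_)
  rw [S.mat_mul_vec, S.mat_mul_vec, S.mat_w, S.mat_u, wM_mulVec, wM_mulVec]
  simpa [mulVec, dotProduct, Fin.sum_univ_seven] using h

variable [Fintype G] [Fintype K]

variable (G) in
/-- The set of involutions. -/
noncomputable def II : Finset G := Finset.univ.filter fun t => t * t = 1 ∧ t ≠ 1

theorem mem_II {t : G} : t ∈ II G ↔ t * t = 1 ∧ t ≠ 1 := by simp [II]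

theorem conj_mem_II {t : G} (g : G) (h : t ∈ II G) : g * t * g⁻¹ ∈ II G :=
  mem_II.2 ⟨by rw [conj_mul, (mem_II.1 h).1]; simp, conj_ne_one (mem_II.1 h).2⟩

theorem sum_conj {A : Type*} [AddCommMonoid A] (F : G → A) (g : G) :
    ∑ t ∈ II G, F (g * t * g⁻¹) = ∑ t ∈ II G, F t :=
  Finset.sum_equiv (MulAut.conj g).toEquiv
    (fun t => ⟨conj_mem_II g, fun h => by simpa [mul_assoc] using conj_mem_II g⁻¹ h⟩) fun _ _ => rfl

theorem sum_II {A : Type*} [AddCommMonoid A] (F : G → A) : ∑ t ∈ II G, F t =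
    ∑ x : K × K, F (S.u x.1 (x.1 * S.s x.1) x.2 * S.a0) + ∑ x : (K × K × K) × Kˣ,
      F (S.u x.1.1 x.1.2.1 x.1.2.2 * (S.h x.2 * S.w) * (S.u x.1.1 x.1.2.1 x.1.2.2)⁻¹) := by
  have hw : ∀ a b c k, (S.u a b c * (S.h k * S.w) * (S.u a b c)⁻¹) • S.inf = S.pt a b c :=
    fun a b c k => by
      rw [mul_smul, mul_smul, mul_smul, S.u_inv, S.u_smul_inf, S.w_smul_inf, S.h_smul_zero,
        S.u_smul_zero]
  rw [← Finset.sum_filter_add_sum_filter_not _ (· ∈ S.B)]
  congr 1
  · refine (Finset.sum_bij (fun x _ => S.u x.1 (x.1 * S.s x.1) x.2 * S.a0) (fun x _ => ?_)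
      (fun x _ y _ e => ?_) (fun t ht => ?_) fun _ _ => rfl).symm
    · have := S.orderOf_u_a0 x.1 (x.1 * S.s x.1) x.2
      rw [if_pos rfl] at this
      exact Finset.mem_filter.2 ⟨mem_II.2 ⟨by rw [← pow_two, ← this, pow_orderOf_eq_one], fun e => by
        rw [e, orderOf_one] at this; omega⟩, mul_mem (S.u_mem_B _ _ _) (S.h_mem_B _)⟩
    · have := S.u_inj.1 (mul_right_cancel e)
      exact Prod.ext this.1 this.2.2
    · obtain ⟨h1, h2⟩ := Finset.mem_filter.1 ht
      obtain ⟨h3, h4⟩ := mem_II.1 h1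
      obtain ⟨a, b, c, k, rfl⟩ := S.mem_B_iff.1 h2
      have h5 := h3
      rw [mul_assoc, ← mul_assoc (S.h k), S.h_mul_u, mul_assoc, ← map_mul, ← mul_assoc, S.u_mul,
        ← mul_one (1 : G), ← map_one S.h, map_one, ← S.u_zero, S.u_zero] at h5
      have h6 : k * k = 1 := (S.u_mul_h_inj (h5.trans (by rw [S.u_zero, map_one]))).2.2.2
      rcases units_sq_eq_one h6 with rfl | rfl
      · rw [map_one, mul_one] at h3 h4
        have := S.u_pow_nine a b c
        rw [show 9 = 2 * 4 + 1 from rfl, pow_succ, pow_mul, pow_two, h3, one_pow, one_mul] at this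
        exact absurd this h4
      · have := S.orderOf_u_a0 a b c
        rw [show orderOf (S.u a b c * S.a0) = 2 from orderOf_eq_prime ((pow_two _).trans h3) h4] at this
        split_ifs at this with e
        · exact ⟨(a, c), Finset.mem_univ _, by rw [e]; rfl⟩
        · omega
  · refine (Finset.sum_bij (fun x _ => S.u x.1.1 x.1.2.1 x.1.2.2 * (S.h x.2 * S.w) *
      (S.u x.1.1 x.1.2.1 x.1.2.2)⁻¹) (fun x _ => ?_) (fun x _ y _ e => ?_) (fun t ht => ?_)
      fun _ _ => rfl).symm
    · have h : _ ∉ S.B := fun h => S.pt_ne_inf _ _ _ ((hw x.1.1 x.1.2.1 x.1.2.2 x.2).symm.trans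
        (S.mem_B.1 h))
      exact Finset.mem_filter.2 ⟨mem_II.2 ⟨by rw [conj_mul, S.h_w_sq]; simp,
        fun e => h (e ▸ one_mem _)⟩, h⟩
    · have := S.pt_inj.1 ((hw _ _ _ _).symm.trans ((congrArg (· • S.inf) e).trans (hw _ _ _ _)))
      rw [this.1, this.2.1, this.2.2] at e
      exact Prod.ext (Prod.ext this.1 (Prod.ext this.2.1 this.2.2))
        (S.h_injective (mul_right_cancel (mul_left_cancel (mul_right_cancel e))))
    · obtain ⟨h1, h2⟩ := Finset.mem_filter.1 ht
      obtain ⟨a, b, c, e⟩ := S.exists_pt_of_ne (fun e => h2 (S.mem_B.2 e))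
      have e1 : ((S.u a b c)⁻¹ * t * S.u a b c) • S.inf = S.pt 0 0 0 := by
        rw [mul_smul, mul_smul, S.u_smul_inf, e, inv_smul_eq_iff, S.u_smul_zero]
      obtain ⟨k, hk⟩ := S.eq_h_w_of_swap e1 (by
        rw [← e1, ← mul_smul]; simp [mul_assoc, ← mul_assoc t, (mem_II.1 h1).1])
      exact ⟨((a, b, c), k), Finset.mem_univ _, by rw [← hk]; group⟩

theorem card_zero : (Fintype.card K : K) = 0 := FiniteField.cast_card_eq_zero K

theorem sum_trace {V : Type*} [AddCommGroup V] [Module K V] [FiniteDimensional K V]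
    (ρ : Representation K G V) (h : ∑ x : K × K × K, ρ (S.u x.1 x.2.1 x.2.2) = 0) (y : G) :
    ∑ t ∈ II G, LinearMap.trace K V (ρ (y * t)) = 0 := by
  have := Fact.mk Nat.prime_three
  have hc : ∀ g, Commute (ρ g) (∑ t ∈ II G, ρ t) := fun g => by
    rw [Commute, SemiconjBy, Finset.mul_sum, Finset.sum_mul, ← sum_conj (fun t => ρ t * ρ g) g]
    simp only [← map_mul, inv_mul_cancel_right]
  have h0 : ∀ v, (∀ a b c, ρ (S.u a b c) v = v) → (∑ t ∈ II G, ρ t) v = 0 := fun v hv => by
    have e1 : ∀ a b c, ρ (S.u a b c * S.a0) v = ρ S.a0 v := fun a b c => by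
      have := S.a0_mul_u (-a) b (-c)
      rw [neg_neg, neg_neg] at this
      rw [← this, map_mul, Module.End.mul_apply, hv]
    have e2 : ∀ a b c g, ρ (S.u a b c * g * (S.u a b c)⁻¹) v = ρ (S.u a b c) (ρ g v) :=
      fun a b c g => by rw [map_mul, map_mul, S.u_inv, Module.End.mul_apply, hv]; rfl
    rw [LinearMap.sum_apply, sum_II S]
    simp only [e1, e2]
    rw [Finset.sum_const, Finset.card_univ, Fintype.card_prod, ← Nat.cast_smul_eq_nsmul K,
      Nat.cast_mul, card_zero, zero_mul, zero_smul, zero_add, Fintype.sum_prod_type_right]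
    simp only [← LinearMap.sum_apply, h, LinearMap.zero_apply, Finset.sum_const_zero]
  have hn : IsNilpotent (∑ t ∈ II G, ρ t) := by
    obtain ⟨n, h1, h2⟩ := ((∑ t ∈ II G, ρ t).eventually_isCompl_ker_pow_range_pow.and
      (Filter.eventually_ge_atTop 1)).exists
    by_contra h3
    obtain ⟨v, a, b, c⟩ := H26.exists_fixed_vector_of_isPGroup S.isPGroup_U (ρ.comp S.U.subtype)
      (LinearMap.range ((∑ t ∈ II G, ρ t) ^ n)) (by
        rintro g _ ⟨v, rfl⟩
        exact ⟨ρ g v, (LinearMap.congr_fun ((hc g).pow_right n).eq v).symm⟩)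
      fun e => h3 ⟨n, LinearMap.range_eq_bot.1 e⟩
    refine b (Submodule.disjoint_def.1 h1.disjoint v ?_ a)
    obtain ⟨n, rfl⟩ : ∃ m, n = m + 1 := ⟨n - 1, by omega⟩
    rw [LinearMap.mem_ker, pow_succ, Module.End.mul_apply,
      h0 v fun a b d => c ⟨_, S.u_mem_U a b d⟩, map_zero]
  simp only [map_mul]
  rw [← map_sum, ← Finset.mul_sum]
  exact (LinearMap.isNilpotent_trace_of_isNilpotent ((hc y).isNilpotent_mul_left hn)).eq_zero

variable {n : ℕ} (hn : Nat.card K = 3 ^ n)
include hn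

theorem sum_prod_tr {ι : Type*} [Fintype ι] (hι : Fintype.card ι < 2 * n) (f : ι → K →+* K) (y : G) :
    ∑ t ∈ II G, ∏ i, f i (tr S (y * t)) = 0 := by
  have := sum_trace S ((Matrix.toLinAlgEquiv' : _ ≃ₐ[K] _).toMonoidHom.comp (tens S f)) (by
    have : ∑ x : K × K × K, tens S f (S.u x.1 x.2.1 x.2.2) = 0 := by
      ext p q
      rw [Matrix.sum_apply]
      simp only [tens, MonoidHom.coe_mk, OneHom.coe_mk, of_apply, S.mat_u]
      exact (Dg.fprod Finset.univ fun i _ => (dg_six S.s (p i) (q i)).map (f i)).sum hn (by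
        rw [Finset.sum_const, Finset.card_univ, smul_eq_mul]; omega)
    exact (map_sum (Matrix.toLinAlgEquiv' : _ ≃ₐ[K] _) _ _).symm.trans (by rw [this, map_zero])) y
  rw [← this]
  exact Finset.sum_congr rfl fun t _ => (trace_tens S f _).symm.trans (Matrix.trace_toLin'_eq _).symm

theorem pow_eq (x : K) : x ^ (3 ^ n - 1) = if x = 0 then 0 else 1 := by
  rw [← hn, Nat.card_eq_fintype_card]
  split_ifs with h
  · rw [h, zero_pow (Nat.sub_ne_zero_of_lt Fintype.one_lt_card)]
  · exact FiniteField.pow_card_sub_one_eq_one x h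

theorem sum_indep (y : G) (τ : K) : ∑ t ∈ II G, (tr S (y * t) - τ) ^ (3 ^ n - 1) =
    ∑ t ∈ II G, tr S (y * t) ^ (3 ^ n - 1) := by
  simp only [← prod_fr, sub_eq_add_neg, map_add]
  refine sum_prod_add _ _ _ fun s hs => ?_
  have := sum_prod_tr S hn (ι := s) (by
    simpa [mul_comm] using Finset.card_lt_card (Finset.ssubset_univ_iff.2 hs)) (fun i => fr K n i) y
  rw [← Finset.sum_mul, ← Finset.sum_congr rfl fun t _ =>
    Finset.prod_coe_sort s fun i => fr K n i (tr S (y * t)), this, zero_mul]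

theorem sum_U (y : G) (τ : K) : ∑ x : K × K × K,
    (tr S (y * S.u x.1 x.2.1 x.2.2) - τ) ^ (3 ^ n - 1) = -S.mat y 6 0 ^ (3 ^ n - 1) := by
  have e : ∀ x : K × K × K, tr S (y * S.u x.1 x.2.1 x.2.2) - τ =
      S.mat y 6 0 * uM S.s x.1 x.2.1 x.2.2 0 6 + (∑ p ∈ (Finset.univ : Finset (Fin 7 × Fin 7)).erase (6, 0),
        S.mat y p.1 p.2 * uM S.s x.1 x.2.1 x.2.2 p.2 p.1 - τ) := fun x => by
    rw [← add_sub_assoc, Finset.add_sum_erase _
      (fun p : Fin 7 × Fin 7 => S.mat y p.1 p.2 * uM S.s x.1 x.2.1 x.2.2 p.2 p.1) (Finset.mem_univ (6, 0)),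
      Fintype.sum_prod_type, tr, map_mul, S.mat_u]
    rfl
  simp only [e, ← prod_fr, map_add]
  rw [sum_prod_add]
  · simp only [prod_fr, mul_pow]
    rw [← Finset.mul_sum, ← mul_neg_one]
    congr 1
    have : ∀ x : K × K × K, uM S.s x.1 x.2.1 x.2.2 0 6 ^ (3 ^ n - 1) = 1 - if x = 0 then 1 else 0 :=
      fun x => by
        rw [pow_eq hn]
        by_cases h : x = 0
        · simp [h, uM_zero]
        · rw [if_neg h, sub_zero, if_neg fun e => h (by
            have := u06 S e
            exact Prod.ext this.1 (Prod.ext this.2.1 this.2.2))]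
    simp [this, card_zero]
  · intro s hs
    have h5 : Dg 5 fun x : K × K × K => ∑ p ∈ (Finset.univ : Finset (Fin 7 × Fin 7)).erase (6, 0),
        S.mat y p.1 p.2 * uM S.s x.1 x.2.1 x.2.2 p.2 p.1 - τ :=
      (Dg.fsum _ (d := 5) fun p hp => ((Dg.const _).mul (dg_uM S.s p.2 p.1)).le (by
        rw [if_neg fun e => (Finset.mem_erase.1 hp).1 (Prod.ext e.2 e.1)])).sub (Dg.const τ)
    refine ((Dg.fprod s fun i _ => ((Dg.const _).mul (dg_six S.s 0 6)).map _).mul
      (Dg.fprod _ fun i _ => h5.map _)).sum hn ?_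
    have := Finset.card_lt_card (Finset.ssubset_univ_iff.2 hs)
    simp only [Finset.sum_const, Finset.card_univ_sdiff, smul_eq_mul, Finset.card_univ,
      Fintype.card_prod, Fintype.card_fin] at this ⊢
    omega

omit hn in
theorem sym (x y : G) : ((II G).filter fun t => IsConj x (y * t)).card *
      Nat.card (Subgroup.centralizer ({x} : Set G)) =
    ((II G).filter fun t => IsConj y (x * t)).card * Nat.card (Subgroup.centralizer ({y} : Set G)) := by
  have key : ∀ x y : G, ((II G).filter fun t => IsConj x (y * t)).card *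
      Nat.card (Subgroup.centralizer ({x} : Set G)) =
      ∑ g : G, ∑ t ∈ II G, if g * x * g⁻¹ = y * t then 1 else 0 := fun x y => by
    rw [Finset.sum_comm, Finset.card_filter, Finset.sum_mul]
    refine Finset.sum_congr rfl fun t _ => ?_
    rw [← Finset.card_filter]
    split_ifs with h
    · rw [one_mul, ← H6.card_conj_eq h, Nat.card_eq_fintype_card, Fintype.card_subtype]
    · rw [zero_mul, eq_comm, Finset.card_eq_zero, Finset.filter_eq_empty_iff]
      exact fun g _ e => h (isConj_iff.2 ⟨g, e⟩)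
  rw [key, key, ← Equiv.sum_comp (Equiv.inv G)]
  refine Finset.sum_congr rfl fun g _ => ?_
  rw [← sum_conj _ g⁻¹]
  refine Finset.sum_congr rfl fun t ht => if_congr ?_ rfl rfl
  have h := (mem_II.1 ht).1
  simp only [Equiv.inv_apply, inv_inv]
  constructor
  · intro e
    rw [show x = g * (y * (g⁻¹ * t * g)) * g⁻¹ by rw [← e]; group]
    simp [mul_assoc, h]
  · intro e
    rw [show y = g⁻¹ * (x * t) * g by rw [← e]; group]
    simp [mul_assoc, ← mul_assoc t, h]

theorem cast_card (y : G) (τ : K) : (((II G).filter fun t => tr S (y * t) = τ).card : K) =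
    ∑ t ∈ II G, (1 - (tr S (y * t) - τ) ^ (3 ^ n - 1)) := by
  rw [Finset.card_filter, Nat.cast_sum]
  refine Finset.sum_congr rfl fun t _ => ?_
  rw [pow_eq hn, sub_eq_zero]
  split_ifs <;> simp

theorem exists_ne (τ : K) : ∃ y, (((II G).filter fun t => tr S (y * t) = τ).card : K) ≠ 0 := by
  by_contra! h
  have h1 := Finset.sum_eq_zero (s := Finset.univ) fun (x : K × K × K) _ =>
    (cast_card S hn _ _).symm.trans (h (S.w * S.u x.1 x.2.1 x.2.2))
  simp only [tr_comm S (S.w * _), ← mul_assoc] at h1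
  rw [Finset.sum_comm] at h1
  simp only [Finset.sum_sub_distrib, sum_U S hn] at h1
  simp only [pow_eq hn, coord_eq_zero] at h1
  have e1 : ∀ a b c, S.u a b c * S.a0 * S.w ∉ S.B := fun a b c e => S.w_not_mem_B
    ((S.B.mul_mem_cancel_left (mul_mem (S.u_mem_B _ _ _) (S.h_mem_B _))).1 e)
  have e2 : ∀ x : (K × K × K) × Kˣ, (-if S.u x.1.1 x.1.2.1 x.1.2.2 * (S.h x.2 * S.w) *
      (S.u x.1.1 x.1.2.1 x.1.2.2)⁻¹ * S.w ∈ S.B then (0 : K) else 1) =
      (if x.1 = 0 then 1 else 0) - 1 := fun x => by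
    by_cases h : x.1 = 0
    · simp [h, S.u_zero, mul_assoc, S.w_mul_w, S.h_mem_B]
    · rw [if_neg h, zero_sub, if_neg fun e => h ?_]
      rw [mul_assoc, mul_assoc, S.B.mul_mem_cancel_left (S.u_mem_B _ _ _), mul_assoc,
        S.B.mul_mem_cancel_left (S.h_mem_B _), ← mul_assoc, S.u_inv] at e
      have := inv_eq_one.1 ((S.u_inv _ _ _).trans (S.u_eq_one.2 (wuw_mem S e)))
      have := S.u_eq_one.1 this
      exact Prod.ext this.1 (Prod.ext this.2.1 this.2.2)
  rw [sum_II S (fun t => -if t * S.w ∈ S.B then (0 : K) else 1)] at h1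
  simp only [if_neg (e1 _ _ _), e2] at h1
  rw [Fintype.sum_prod_type_right (α₁ := K × K × K)] at h1
  simp [card_zero, Fintype.card_units, Fintype.one_lt_card.le] at h1

omit hn in
theorem three_dvd {y : G} (h : ¬ Rg y) (S : Model G K) :
    3 ∣ Nat.card (Subgroup.centralizer ({y} : Set G)) := by
  have h0 := (Model.card_three_ne (K := K)).2
  by_cases h3 : 3 ∣ orderOf y
  · exact h3.trans (Subgroup.orderOf_dvd_natCard _ (Subgroup.mem_centralizer_singleton_iff.2 rfl))
  by_cases h1 : y = 1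
  · rw [h1, Subgroup.centralizer_eq_top_iff_subset.2 (by simp), Subgroup.card_top, S.card_G,
      mul_assoc]
    exact (h0.trans (dvd_pow_self _ (by decide))).mul_right _
  · rw [S.card_centralizer_inv (by_contra fun h2 => h ⟨Model.two_lt_orderOf h2, h3⟩) h1, mul_assoc]
    exact h0.mul_right _

omit hn in
include S in
theorem Rg.exists_inv (hq : 3 < Nat.card K) {r : ℕ} (hr : r * r = 3 * Nat.card K) {x : G}
    (h : Rg x) : ∃ t ∈ II G, IsConj x (x * t) := by
  obtain ⟨m, hn⟩ := S.exists_card_eq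
  have fl : ∀ {x : G}, Rg x → ∀ y, ((II G).filter fun t => RS.tr S (y * t) = RS.tr S x) =
      (II G).filter fun t => IsConj x (y * t) := fun h y => Finset.filter_congr fun t _ =>
    ⟨(h.tr S hq hr).2.2 _, fun e => (tr_conj S e).symm⟩
  obtain ⟨y, hy⟩ := exists_ne S hn (RS.tr S x)
  rw [Ne, CharP.cast_eq_zero_iff K 3, fl h] at hy
  have h1 := Nat.prime_three.not_dvd_mul hy (h.cent S hq hr).2
  rw [sym, Nat.prime_three.dvd_mul, not_or] at h1
  have h2 : Rg y := by_contra fun h2 => h1.2 (three_dvd h2 S)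
  rw [← fl h2, ← CharP.cast_eq_zero_iff K 3, cast_card S hn, Finset.sum_sub_distrib, sum_indep S hn,
    ← sum_indep S hn x (RS.tr S x), ← Finset.sum_sub_distrib, ← cast_card S hn, fl h] at h1
  obtain ⟨t, ht⟩ := Finset.card_ne_zero.1 fun e => h1.1 (by rw [e, Nat.cast_zero])
  exact ⟨t, Finset.mem_filter.1 ht⟩

end H62.RS
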