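import Cfsg.Agent.Lib.ReeSq.Inv
import Cfsg.Agent.Lib.Ree.MinDeg
import Cfsg.Agent.Lib.Ree.Cover
import Cfsg.Agent.Lib.Ree.LieModel
import Cfsg.Agent.Lib.BS.ClassMul

/-! The square of a regular semisimple class of a small Ree group. -/

set_option autoImplicit false
set_option linter.unusedSectionVars false

namespace H62.RS

open H40.Ree H40.Tor Matrix Cfsg
open scoped Classical ComplexConjugate

/-- `g` is a product of two conjugates of `x`. -/
def P2 {G : Type*} [Group G] (x g : G) : Prop := ∃ a b, IsConj x a ∧ IsConj x b ∧ g = a * b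

theorem P2.conj {G : Type*} [Group G] {x g : G} (h : P2 x g) (c : G) : P2 x (c * g * c⁻¹) := by
  obtain ⟨a, b, ha, hb, rfl⟩ := h
  exact ⟨_, _, ha.trans (isConj_iff.2 ⟨c, rfl⟩), hb.trans (isConj_iff.2 ⟨c, rfl⟩), conj_mul.symm⟩

theorem isConj_inv {G : Type*} [Group G] {x a : G} (hx : IsConj x x⁻¹) (h : IsConj x a) :
    IsConj x a⁻¹ := by
  obtain ⟨c, rfl⟩ := isConj_iff.1 h
  exact hx.trans (isConj_iff.2 ⟨c, conj_inv.symm⟩)

theorem P2.inv {G : Type*} [Group G] {x g : G} (hx : IsConj x x⁻¹) (h : P2 x g) : P2 x g⁻¹ := by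
  obtain ⟨a, b, ha, hb, rfl⟩ := h
  exact ⟨_, _, isConj_inv hx hb, isConj_inv hx ha, mul_inv_rev _ _⟩

theorem P2.of_pair {G : Type*} [Group G] {x a z : G} (hx : IsConj x x⁻¹) (h : IsConj x a)
    (h' : IsConj x (a * z)) : P2 x z := ⟨_, _, isConj_inv hx h, h', (inv_mul_cancel_left _ _).symm⟩

theorem P2.of_char {G : Type*} [Group G] [Finite G] {x g : G} {D r : ℕ}
    (hD : ∀ χ, IsIrrCharacter G χ → χ ≠ (fun _ => 1) → (D : ℝ) ≤ ‖χ 1‖)
    (hg : Nat.card (Subgroup.centralizer ({g} : Set G)) ≤ r * r)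
    (hx : Nat.card (Subgroup.centralizer ({x} : Set G)) * r < D + r) : P2 x g := by
  have sq : ∀ y : G, ∑ χ : IrrCharacter G, ‖(χ : G → ℂ) y‖ ^ 2 =
      (Nat.card (Subgroup.centralizer ({y} : Set G)) : ℝ) := fun y => by
    have h := H6.column_orthogonality_self y
    simp only [Complex.mul_conj'] at h
    exact_mod_cast h
  have h0 : H31.classCoeff x x g ≠ 0 := by
    intro h
    have e := H31.classCoeff_eq x x g
    rw [h, Nat.cast_zero, eq_comm, mul_eq_zero, div_eq_zero_iff, mul_self_eq_zero] at e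
    rcases e with (e | e) | e
    · exact Subgroup.index_ne_zero_of_finite (Nat.cast_eq_zero.1 e)
    · exact H6.card_ne_zero e
    have s1 := sq x
    rw [← Finset.add_sum_erase _ _ (Finset.mem_univ ⟨_, H6.isIrrCharacter_one⟩)] at e s1
    have hD0 : (0 : ℝ) < D := by
      have : 0 < Nat.card (Subgroup.centralizer ({x} : Set G)) := Nat.card_pos
      exact_mod_cast (by nlinarith : 0 < D)
    have h1 := (congrArg norm (neg_eq_of_add_eq_zero_right e)).trans_le ((norm_sum_le _ _).trans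
      (Finset.sum_le_sum (g := fun χ : IrrCharacter G => ‖χ.1 x‖ ^ 2 * (r / D)) fun χ hχ => by
        have h2 : ‖χ.1 g‖ ≤ r := by
          refine (sq_le_sq₀ (norm_nonneg _) (Nat.cast_nonneg _)).1 ?_
          refine (Finset.single_le_sum (f := fun χ : IrrCharacter G => ‖χ.1 g‖ ^ 2)
            (fun _ _ => sq_nonneg _) (Finset.mem_univ χ)).trans ?_
          rw [sq g, pow_two]; exact_mod_cast hg
        rw [norm_div, norm_mul, norm_mul, Complex.norm_conj, ← pow_two, mul_div_assoc]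
        exact mul_le_mul_of_nonneg_left (div_le_div₀ (Nat.cast_nonneg _) h2 hD0
          (hD _ χ.2 fun e => (Finset.mem_erase.1 hχ).1 (Subtype.ext e))) (sq_nonneg _)))
    rw [← Finset.sum_mul, eq_sub_of_add_eq' s1, ← mul_div_assoc, le_div_iff₀ hD0] at h1
    have h3 : (Nat.card (Subgroup.centralizer ({x} : Set G)) : ℝ) * r < D + r := by exact_mod_cast hx
    simp at h1
    nlinarith
  obtain ⟨⟨⟨a, b⟩, h1, h2, h3⟩⟩ := (Nat.card_ne_zero.1 h0).1
  exact ⟨a, b, h1, h2, h3.symm⟩

variable {G : Type*} [Group G] {K : Type*} [Field K] [CharP K 3] (S : Model G K) [Finite K]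

theorem ncard_fibre {α : K} (hα : α ≠ 0) (β γ δ : K) :
    {c | δ + β * c + γ * S.s c - α * c ^ 2 = 0}.ncard ≤ 4 := by
  open Polynomial in
  let P : K[X] := C α * X ^ 2 - C β * X - C δ
  open Polynomial in
  let Q : K[X] := C (S.s α) * P ^ 2 - C (S.s β * γ) * P - C (γ ^ 2 * S.s δ) - C (γ ^ 2 * S.s γ) * X ^ 3
  have hQ : Q.natDegree = 4 := by
    simp only [Q, P]
    compute_degree!
  have h0 : Q ≠ 0 := fun e => by rw [e] at hQ; simp at hQ
  refine (Set.ncard_le_ncard (t := (Q.roots.toFinset : Set K)) fun c hc => ?_).trans ?_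
  · have h1 : δ + β * c + γ * S.s c - α * c ^ 2 = 0 := hc
    have h2 := congrArg S.s h1
    simp only [map_sub, map_add, map_mul, map_pow, S.hs, map_zero] at h2
    simp only [Finset.mem_coe, Multiset.mem_toFinset, Polynomial.mem_roots h0, Polynomial.IsRoot.def,
      Q, P, Polynomial.eval_sub, Polynomial.eval_mul, Polynomial.eval_pow, Polynomial.eval_C,
      Polynomial.eval_X]
    rw [show α * c ^ 2 - β * c - δ = γ * S.s c by linear_combination -h1]
    linear_combination -γ ^ 2 * h2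
  · rw [Set.ncard_coe_finset]
    exact (Multiset.toFinset_card_le _).trans (hQ ▸ Q.card_roots')

theorem ncard_tr {y : G} (hy : y ∉ S.B) (τ : K) : {c | tr S (y * S.u 0 0 c) = τ}.ncard ≤ 4 := by
  refine le_of_eq_of_le ?_ (ncard_fibre S ((coord_eq_zero S).not.2 hy)
    (S.mat y 5 2 - S.mat y 3 0 - S.mat y 4 1 - S.mat y 6 3) (S.mat y 6 1 - S.mat y 5 0) (tr S y - τ))
  congr 1
  ext c
  rw [Set.mem_ofPred_eq, Set.mem_ofPred_eq, tr_mul_z]
  exact ⟨fun h => by linear_combination h, fun h => by linear_combination h⟩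

theorem card_le_of_range {y : G} (f : Fin 3 × K → G) (h : ∀ z, z * y = y * z → z ∈ Set.range f) :
    Nat.card (Subgroup.centralizer ({y} : Set G)) ≤ 3 * Nat.card K := by
  have := Nat.card_le_card_of_surjective _ (Set.rangeFactorization_surjective (f := f))
  rw [Nat.card_prod, Nat.card_eq_fintype_card (α := Fin 3), Fintype.card_fin] at this
  exact (Nat.card_mono (Set.finite_range f) fun z hz =>
    h z (Subgroup.mem_centralizer_singleton_iff.1 hz)).trans this

theorem cent_nine {a : K} (ha : a ≠ 0) (b c : K) :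
    Nat.card (Subgroup.centralizer ({S.u a b c} : Set G)) ≤ 3 * Nat.card K := by
  refine card_le_of_range (fun p => S.u a b c ^ (p.1 : ℕ) * S.u 0 0 p.2) fun z hz => ?_
  have key : ∀ b' c', S.u 0 b' c' * S.u a b c = S.u a b c * S.u 0 b' c' → b' = 0 := fun b' c' h => by
    rw [S.u_mul, S.u_mul, S.u_inj] at h
    have := h.2.2
    simp only [map_zero] at this
    exact (mul_eq_zero.1 (by linear_combination -this : a * b' = 0)).resolve_left ha
  have k2 : ∀ i : Fin 3, ∀ b' c', (S.u a b c ^ (i : ℕ))⁻¹ * z = S.u 0 b' c' →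
      z ∈ Set.range fun p : Fin 3 × K => S.u a b c ^ (p.1 : ℕ) * S.u 0 0 p.2 := fun i b' c' h => by
    have := key b' c' (h ▸ ((Commute.refl _).pow_left i).inv_left.mul_left hz)
    exact ⟨(i, c'), (eq_mul_of_inv_mul_eq (this ▸ h)).symm⟩
  rcases S.cases_of_commute_U (S.u_mem_U a b c) (fun e => ha (S.u_eq_one.1 e).1) hz with
    ⟨a', b', c', rfl⟩ | ⟨a', b', c', rfl⟩
  · have h := hz
    rw [S.u_mul, S.u_mul, S.u_inj] at h
    have h1 : S.s (a' / a) = a' / a := by
      rw [map_div₀, div_eq_div_iff (S.s_eq_zero.not.2 ha) ha]; linear_combination h.2.1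
    rcases S.s_eq_self h1 with e | e | e
    · rw [div_eq_zero_iff, or_iff_left ha] at e
      exact k2 0 b' c' (by simp [e])
    · rw [div_eq_one_iff_eq ha] at e
      exact k2 1 _ _ (by rw [Fin.val_one, pow_one, S.u_inv, S.u_mul, e, neg_add_cancel])
    · rw [div_eq_iff ha] at e
      exact k2 2 _ _ (by
        rw [Fin.val_two, pow_two, S.u_mul, S.u_inv, S.u_mul,
          show -(a + a) + a' = 0 by linear_combination e - a * three (K := K)])
  · rw [mul_assoc, S.a0_mul_u, ← mul_assoc, ← mul_assoc, mul_left_inj, S.u_mul, S.u_mul, S.u_inj] at hz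
    exact absurd (by linear_combination hz.1 + a * three (K := K)) ha

theorem cent_six {a b : K} (h : b ≠ a * S.s a) (c : K) :
    Nat.card (Subgroup.centralizer ({S.u a b c * S.a0} : Set G)) ≤ 3 * Nat.card K := by
  refine card_le_of_range (fun p => (S.u a b c * S.a0) ^ (p.1 : ℕ) * S.u 0 p.2 (-(a * p.2)))
    fun z hz => ?_
  have k2 : ∀ i : Fin 3, ((S.u a b c * S.a0) ^ (i : ℕ))⁻¹ * z ∈ S.U → z ∈ Set.range
      fun p : Fin 3 × K => (S.u a b c * S.a0) ^ (p.1 : ℕ) * S.u 0 p.2 (-(a * p.2)) := by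
    rintro i ⟨a', b', c', e⟩
    have h1 : S.u a' b' c' * (S.u a b c * S.a0) = S.u a b c * S.a0 * S.u a' b' c' :=
      e ▸ ((Commute.refl _).pow_left i).inv_left.mul_left hz
    rw [mul_assoc, S.a0_mul_u, ← mul_assoc, ← mul_assoc, mul_left_inj, S.u_mul, S.u_mul,
      S.u_inj] at h1
    obtain rfl : a' = 0 := by linear_combination -h1.1 + a' * three (K := K)
    have h2 := h1.2.2
    simp only [neg_zero, map_zero] at h2
    obtain rfl : c' = -(a * b') := by linear_combination -h2 + c' * three (K := K)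
    exact ⟨(i, b'), (eq_mul_of_inv_mul_eq e).symm⟩
  rcases S.cases_of_commute_U (y := S.u a b c * S.a0 * (S.u a b c * S.a0))
    (S.u_a0_sq a b c ▸ S.u_mem_U _ _ _) (fun e => h (by
      rw [S.u_a0_sq, S.u_eq_one] at e; linear_combination -e.2.1))
    (Commute.mul_right hz hz) with e | ⟨a', b', c', rfl⟩
  · exact k2 0 (by simpa using e)
  · refine k2 1 ?_
    have := S.conj_mem_U (S.h_mem_B (-1)) (mul_mem (inv_mem (S.u_mem_U a b c)) (S.u_mem_U a' b' c'))
    rw [Fin.val_one, pow_one, _root_.mul_inv_rev, S.a0_inv]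
    convert this using 1
    rw [← Model.a0, S.a0_inv]; group

include S in
theorem le_deg (hq : 3 < Nat.card K) (χ : G → ℂ) (h : IsIrrCharacter G χ) (h1 : χ ≠ fun _ => 1) :
    ((Nat.card K ^ 2 - Nat.card K + 1 : ℕ) : ℝ) ≤ ‖χ 1‖ := by
  have := S.finite
  have := Fintype.ofFinite G
  have h0 := H6.irr_one_ne_zero h
  have h2 := H6.irr_inner_ne h H6.isIrrCharacter_one h1
  obtain ⟨k, ρ, -, rfl⟩ := h
  rw [Representation.char_one, Complex.norm_natCast, Nat.cast_le]
  refine S.le_finrank ρ fun e => ?_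
  have := S.isSimpleGroup hq
  have h3 : ρ.ker = ⊤ := (MonoidHom.normal_ker ρ).eq_bot_or_eq_top.resolve_left fun h =>
    one_ne_zero (S.u_eq_one.1 (Subgroup.mem_bot.1 (h ▸ e : S.u 0 0 1 ∈ ⊥))).2.2
  have h4 : ∀ g, ρ.character g = ρ.character 1 := fun g => by
    rw [Representation.character, Representation.character,
      show ρ g = 1 from (h3 ▸ Subgroup.mem_top g : g ∈ ρ.ker), map_one ρ]
  rw [H6.classInner_one_right, Finset.sum_congr rfl fun g _ => h4 g] at h2
  generalize ρ.character 1 = z at h0 h2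
  simp [h0] at h2

variable (hq : 3 < Nat.card K) {r : ℕ} (hr : r * r = 3 * Nat.card K) {x : G} (h : Rg x)
include S hq hr h

theorem Rg.real : IsConj x x⁻¹ := (h.tr S hq hr).2.2 _ (tr_inv S x)

theorem Rg.p2_z {c : K} (hc : c ≠ 0) : P2 x (S.u 0 0 c) := by
  obtain ⟨h1, h2, h3⟩ := h.tr S hq hr
  obtain ⟨k, hk⟩ := exists_tr S h2
  have := P2.of_pair (h.real S hq hr) (h3 _ hk) (z := S.u 0 0 1) (h3 _ (by
    rw [mul_assoc, S.u_zero_mul, add_zero, ← hk, tr_whu, tr_whu]
    linear_combination (k : K) ^ 2 * S.s k * three (K := K)))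
  obtain ⟨a, rfl⟩ := S.exists_sq_s c
  have ha : a ≠ 0 := by rintro rfl; simp at hc
  simpa [S.h_conj_u] using this.conj (S.h (Units.mk0 a ha))

theorem Rg.exists_t : ∃ b ≠ 0, ∃ c, P2 x (S.u 0 b c) := by
  have := S.finite
  have := Fintype.ofFinite G
  have := Fintype.ofFinite K
  by_contra! hn
  have h1 : ∀ y ∉ S.B, (Finset.univ.filter fun p : K × K => IsConj x (y * S.u 0 p.1 p.2)).card ≤ 4 := by
    intro y hy
    rcases (Finset.univ.filter fun p : K × K => IsConj x (y * S.u 0 p.1 p.2)).eq_empty_or_nonempty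
      with e | ⟨p, hp⟩
    · rw [e]; exact Nat.zero_le _
    have key : ∀ q ∈ Finset.univ.filter fun p : K × K => IsConj x (y * S.u 0 p.1 p.2), q.1 = p.1 :=
      fun q hq' => by_contra fun e => hn _ (sub_ne_zero.2 e) (q.2 - p.2)
        (P2.of_pair (h.real S hq hr) (Finset.mem_filter.1 hp).2 (by
          rw [mul_assoc, S.u_zero_mul, add_sub_cancel, add_sub_cancel]
          exact (Finset.mem_filter.1 hq').2))
    rw [← Set.ncard_coe_finset]
    refine (Set.ncard_le_ncard_of_injOn Prod.snd (fun q hq' => ?_) (fun a ha b hb e =>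
      Prod.ext ((key a ha).trans (key b hb).symm) e)).trans
      (ncard_tr S ((S.B.mul_mem_cancel_right (S.u_mem_B 0 p.1 0)).not.2 hy) (RS.tr S x))
    have := tr_conj S (Finset.mem_filter.1 hq').2
    rw [key q hq', ← add_zero p.1, ← zero_add q.2, ← S.u_zero_mul, ← mul_assoc] at this
    exact this.symm
  have h2 : ∑ y : G, (Finset.univ.filter fun p : K × K => IsConj x (y * S.u 0 p.1 p.2)).card =
      {y | IsConj x y}.ncard * Nat.card K ^ 2 := by
    simp only [Finset.card_filter]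
    rw [Finset.sum_comm, Finset.sum_congr rfl fun p _ => Equiv.sum_comp
      (Equiv.mulRight (S.u 0 p.1 p.2)) fun y => if IsConj x y then 1 else 0, ← Finset.card_filter,
      Finset.sum_const, Set.ncard_eq_toFinset_card', Set.toFinset_ofPred]
    simp [pow_two, mul_comm]
  have h3 : ∑ y : G, (Finset.univ.filter fun p : K × K => IsConj x (y * S.u 0 p.1 p.2)).card ≤
      ∑ y : G, (4 + if y ∈ S.B then Nat.card K ^ 2 else 0) := Finset.sum_le_sum fun y _ => by
    split_ifs with hy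
    · exact (Finset.card_le_univ _).trans (by simp [pow_two])
    · exact h1 y hy
  rw [h2, Finset.sum_add_distrib, ← Finset.sum_filter, Finset.sum_const, Finset.sum_const,
    ← Fintype.card_subtype, ← Nat.card_eq_fintype_card, Finset.card_univ,
    ← Nat.card_eq_fintype_card, smul_eq_mul, smul_eq_mul] at h3
  have h4 : Nat.card S.B * Nat.card K ^ 2 ≤ Nat.card G := by
    rw [← S.B.card_mul_index, S.index_B]
    exact Nat.mul_le_mul_left _ ((Nat.pow_le_pow_right (by omega) (by omega)).trans (Nat.le_succ _))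
  have h5 := ncard_class x
  have h6 : 0 < {y | IsConj x y}.ncard := Nat.pos_of_mul_pos_right (h5 ▸ Nat.card_pos)
  have h7 : Nat.card K ^ 2 ≤ 5 * Nat.card (Subgroup.centralizer ({x} : Set G)) :=
    Nat.le_of_mul_le_mul_left (by rw [mul_left_comm, h5]; omega) h6
  have := (h.cent S hq hr).1
  have := nums S hq hr
  nlinarith

theorem Rg.p2_t {b : K} (hb : b ≠ 0) (c : K) : P2 x (S.u 0 b c) := by
  have key : ∀ {b c : K}, b ≠ 0 → P2 x (S.u 0 b c) → ∀ (y : Kˣ) c', P2 x (S.u 0 (y * y * b) c') :=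
    fun {b c} hb h y c' => by
      have h1 := h.conj (S.h (S.sdiv y))
      rw [S.h_conj_u, S.sdiv_mul, mul_zero] at h1
      have h2 := h1.conj (S.u ((c' - S.sdiv y ^ 2 * S.s (S.sdiv y) * c) / (y * y * b)) 0 0)
      rw [S.u_conj_u, div_mul_cancel₀ _ (by simp [hb])] at h2
      simpa using h2
  obtain ⟨b0, h0, c0, h1⟩ := h.exists_t S hq hr
  obtain ⟨y, e | e⟩ := sq_or_neg_sq S.hs (Units.mk0 (b / b0) (div_ne_zero hb h0)) <;>
    replace e := (div_eq_iff h0).1 (congrArg Units.val e)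
  · exact e ▸ key h0 h1 y c
  · have h2 := h1.inv (h.real S hq hr)
    rw [S.u_zero_inv] at h2
    convert key (neg_ne_zero.2 h0) h2 y c using 2
    rw [e]; simp

theorem Rg.p2_small {g : G} (hg : Nat.card (Subgroup.centralizer ({g} : Set G)) ≤ 3 * Nat.card K) :
    P2 x g := by
  have := S.finite
  refine P2.of_char (le_deg S hq) (hr ▸ hg) ((Nat.mul_le_mul_right _ (h.cent S hq hr).1).trans_lt ?_)
  obtain ⟨-, -, h1, h2⟩ := nums S hq hr
  obtain ⟨d, hd⟩ : ∃ d, Nat.card K ^ 2 = Nat.card K + d :=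
    Nat.exists_eq_add_of_le (Nat.le_self_pow two_ne_zero _)
  rw [hd, Nat.add_sub_cancel_left]
  nlinarith

theorem Rg.p2 {g : G} (hg : g ≠ 1) : P2 x g := by
  have := S.finite
  have := Fintype.ofFinite G
  have := Fintype.ofFinite K
  by_cases h0 : Rg g
  · have := (h0.cent S hq hr).1
    have := nums S hq hr
    exact h.p2_small S hq hr (by omega)
  by_cases h3 : 3 ∣ orderOf g
  · obtain ⟨k, hk⟩ := S.exists_conj_mem_B h3
    have h4 : 3 ∣ orderOf (k⁻¹ * g * k) := by rwa [orderOf_conj']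
    have h5 := conj_ne_one' (g := k) hg
    suffices P2 x (k⁻¹ * g * k) by simpa [mul_assoc] using this.conj k
    rcases S.cases_of_three_dvd hk h4 with ⟨a, b, c, e⟩ | ⟨a, b, c, e⟩ <;> rw [e] at h4 h5 ⊢
    · by_cases ha : a = 0
      · by_cases hb : b = 0
        · rw [ha, hb] at h5 ⊢
          exact h.p2_z S hq hr fun e => h5 (e ▸ S.u_zero)
        · exact ha ▸ h.p2_t S hq hr hb c
      · exact h.p2_small S hq hr (cent_nine S ha b c)
    · exact h.p2_small S hq hr (cent_six S (fun e => by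
        rw [S.orderOf_u_a0, if_pos e] at h4; omega) c)
  · obtain ⟨t, ht, e⟩ := h.exists_inv S hq hr
    have h2 : g * g = 1 := by_contra fun h2 => h0 ⟨Model.two_lt_orderOf h2, h3⟩
    obtain ⟨k, rfl⟩ := isConj_iff.1
      ((S.isConj_a0 (mem_II.1 ht).1 (mem_II.1 ht).2).symm.trans (S.isConj_a0 h2 hg))
    exact (P2.of_pair (h.real S hq hr) (IsConj.refl x) e).conj k

end H62.RS
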